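import Mathlib
import Cfsg.Agent.Lib.Helper49.HJO.Defs

/-!
# HJO package [V]: 120 involutions in `H \ Q`
-/

set_option autoImplicit false

namespace Cfsg.Agent.Lib.Helper16.HJO

open Cfsg.Agent.Lib.Helper49.HJO

universe u

/-- `A₅` has exactly 15 involutions. -/
theorem a5_invol_card :
    Nat.card {k : alternatingGroup (Fin 5) // k ≠ 1 ∧ k * k = 1} = 15 := by
  rw [Nat.card_eq_fintype_card]
  decide

/-- Transport of the involution count to a subgroup isomorphic to `A₅`. -/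
theorem invol_card_of_iso {G : Type u} [Group G] (K : Subgroup G)
    (e : K ≃* alternatingGroup (Fin 5)) :
    Nat.card {k : G // k ∈ K ∧ k ≠ 1 ∧ k * k = 1} = 15 := by
  rw [← a5_invol_card]
  refine Nat.card_congr
    { toFun := fun k => ⟨e ⟨k.1, k.2.1⟩, ?_, ?_⟩
      invFun := fun a => ⟨((e.symm a.1 : K) : G), (e.symm a.1).2, ?_, ?_⟩
      left_inv := ?_
      right_inv := ?_ }
  · intro h
    apply k.2.2.1
    have : (⟨k.1, k.2.1⟩ : K) = 1 := by
      apply e.injective; rw [h, map_one]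
    exact congrArg Subtype.val this
  · rw [← map_mul]
    have : (⟨k.1, k.2.1⟩ : K) * ⟨k.1, k.2.1⟩ = 1 := Subtype.ext k.2.2.2
    rw [this, map_one]
  · intro h
    apply a.2.1
    have h1 : e.symm a.1 = 1 := Subtype.ext h
    have := congrArg e h1
    simpa using this
  · have h1 : e.symm a.1 * e.symm a.1 = 1 := by
      rw [← map_mul, a.2.2, map_one]
    exact congrArg Subtype.val h1
  · intro k
    apply Subtype.ext
    simp
  · intro a
    apply Subtype.ext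
    simp

/-- Every element of `K ⊔ Q` is `q * k` when `K` normalizes `Q`. -/
theorem exists_mul_of_mem_sup {G : Type u} [Group G] (K Q : Subgroup G)
    (hn : ∀ k ∈ K, ∀ q ∈ Q, k * q * k⁻¹ ∈ Q) {v : G} (hv : v ∈ K ⊔ Q) :
    ∃ q ∈ Q, ∃ k ∈ K, v = q * k := by
  let S : Subgroup G :=
    { carrier := {v | ∃ q ∈ Q, ∃ k ∈ K, v = q * k}
      mul_mem' := by
        rintro a b ⟨q, hq, k, hk, rfl⟩ ⟨q', hq', k', hk', rfl⟩
        refine ⟨q * (k * q' * k⁻¹), Q.mul_mem hq (hn k hk q' hq'), k * k', K.mul_mem hk hk', ?_⟩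
        group
      one_mem' := ⟨1, Q.one_mem, 1, K.one_mem, by simp⟩
      inv_mem' := by
        rintro a ⟨q, hq, k, hk, rfl⟩
        refine ⟨k⁻¹ * q⁻¹ * k⁻¹⁻¹, hn k⁻¹ (K.inv_mem hk) q⁻¹ (Q.inv_mem hq), k⁻¹, K.inv_mem hk, ?_⟩
        group }
  have hle : K ⊔ Q ≤ S := by
    apply sup_le
    · intro k hk
      exact ⟨1, Q.one_mem, k, hk, by simp⟩
    · intro q hq
      exact ⟨q, hq, 1, K.one_mem, by simp⟩
  exact hle hv

/-- [V] -/
theorem pkgV (hLV : PkgLV.{u}) : PkgV.{u} := by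
  intro G _ _ H Q K z cfg
  obtain ⟨e⟩ := cfg.Kiso
  have hKQ : ∀ x, x ∈ K → x ∈ Q → x = 1 := by
    intro x hxK hxQ
    have : x ∈ K ⊓ Q := ⟨hxK, hxQ⟩
    rw [cfg.KQ] at this
    exact Subgroup.mem_bot.mp this
  have hn : ∀ k ∈ K, ∀ q ∈ Q, k * q * k⁻¹ ∈ Q := fun k hk q hq => cfg.Qn k (cfg.KH hk) q hq
  have hcardL : ∀ k : {k : G // k ∈ K ∧ k ≠ 1 ∧ k * k = 1},
      Nat.card {q : G // InL Q k.1 q} = 8 := by
    intro k
    have hkQ : k.1 ∉ Q := fun h => k.2.2.1 (hKQ _ k.2.1 h)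
    exact (hLV H Q K z cfg k.1 (cfg.KH k.2.1) hkQ k.2.2.2).card
  have hfin : Finite {k : G // k ∈ K ∧ k ≠ 1 ∧ k * k = 1} := inferInstance
  haveI := Fintype.ofFinite {k : G // k ∈ K ∧ k ≠ 1 ∧ k * k = 1}
  have hsig : Nat.card (Σ k : {k : G // k ∈ K ∧ k ≠ 1 ∧ k * k = 1}, {q : G // InL Q k.1 q})
      = 120 := by
    rw [Nat.card_sigma]
    simp only [hcardL]
    rw [Finset.sum_const, Finset.card_univ, ← Nat.card_eq_fintype_card, invol_card_of_iso K e]
    rfl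
  rw [← hsig]
  symm
  let f : (Σ k : {k : G // k ∈ K ∧ k ≠ 1 ∧ k * k = 1}, {q : G // InL Q k.1 q}) →
      {v : G // v ∈ H ∧ v ∉ Q ∧ v * v = 1} := fun p =>
    ⟨p.2.1 * p.1.1, H.mul_mem (cfg.QH p.2.2.1) (cfg.KH p.1.2.1), by
      intro h
      have : p.1.1 ∈ Q := by
        have := Q.mul_mem (Q.inv_mem p.2.2.1) h
        simpa using this
      exact p.1.2.2.1 (hKQ _ p.1.2.1 this), by
      have h1 : p.1.1 * p.2.1 * p.1.1 = (p.2.1)⁻¹ := p.2.2.2
      calc p.2.1 * p.1.1 * (p.2.1 * p.1.1) = p.2.1 * (p.1.1 * p.2.1 * p.1.1) := by group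
        _ = 1 := by rw [h1]; group⟩
  refine Nat.card_congr (Equiv.ofBijective f ⟨?_, ?_⟩)
  · rintro ⟨⟨k, hk, hk1, hk2⟩, ⟨q, hq, hq2⟩⟩ ⟨⟨k', hk', hk1', hk2'⟩, ⟨q', hq', hq2'⟩⟩ h
    have h0 : q * k = q' * k' := congrArg Subtype.val h
    have h1 : q'⁻¹ * q = k' * k⁻¹ := by
      calc q'⁻¹ * q = q'⁻¹ * (q * k) * k⁻¹ := by group
        _ = k' * k⁻¹ := by rw [h0]; group
    have h2 : k' * k⁻¹ = 1 := by
      apply hKQ _ (K.mul_mem hk' (K.inv_mem hk))
      rw [← h1]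
      exact Q.mul_mem (Q.inv_mem hq') hq
    have hkk : k' = k := by
      have := mul_inv_eq_one.mp h2
      exact this
    subst hkk
    have hqq : q = q' := by
      have := mul_right_cancel h0
      exact this
    subst hqq
    rfl
  · rintro ⟨v, hvH, hvQ, hv2⟩
    have hv' : v ∈ K ⊔ Q := by rw [cfg.KsupQ]; exact hvH
    obtain ⟨q, hq, k, hk, rfl⟩ := exists_mul_of_mem_sup K Q hn hv'
    have hk1 : k ≠ 1 := by
      rintro rfl
      apply hvQ
      simpa using hq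
    have h3 : k * k = (q * (k * q * k⁻¹))⁻¹ := by
      have : q * (k * q * k⁻¹) * (k * k) = 1 := by
        calc q * (k * q * k⁻¹) * (k * k) = q * k * (q * k) := by group
          _ = 1 := hv2
      exact eq_inv_of_mul_eq_one_right this
    have hk2 : k * k = 1 := by
      apply hKQ _ (K.mul_mem hk hk)
      rw [h3]
      exact Q.inv_mem (Q.mul_mem hq (hn k hk q hq))
    have hkinv : k⁻¹ = k := by
      exact inv_eq_of_mul_eq_one_left hk2
    have hq2 : k * q * k = q⁻¹ := by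
      have h4 : q * (k * q * k⁻¹) = 1 := by
        have := h3
        rw [hk2] at this
        have h5 : (q * (k * q * k⁻¹))⁻¹⁻¹ = 1 := by rw [← this]; simp
        simpa using h5
      rw [hkinv] at h4
      exact eq_inv_of_mul_eq_one_right h4
    exact ⟨⟨⟨k, hk, hk1, hk2⟩, ⟨q, hq, hq2⟩⟩, rfl⟩

end Cfsg.Agent.Lib.Helper16.HJO
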